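import Mathlib
import Cfsg.Agent.Lib.Classical.Symp.Basic

/-!
# The Schrödinger model of the Heisenberg group of `F^{2n}`

`π(a, b) f (x) = ψ(b·x + ½ a·b) f(x + a)` on functions on `F^n`: the commutation relation, the trace,
the commutant, and invariant subspaces.
-/

set_option autoImplicit false
set_option linter.unusedSectionVars false
set_option linter.unusedSimpArgs false
set_option linter.unusedVariables false

namespace Cfsg.Agent.Lib.MinDeg.Weil.Heis

open Matrix Cfsg Cfsg.Agent.Lib.Classical.Symp.Basic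

variable {F : Type*} [Field F] [Fintype F] [DecidableEq F] {n : ℕ}

/-- The `a` part of a vector. -/
def aa (v : Fin n ⊕ Fin n → F) : Fin n → F := fun i => v (.inl i)

/-- The `b` part of a vector. -/
def bb (v : Fin n ⊕ Fin n → F) : Fin n → F := fun i => v (.inr i)

@[simp] theorem aa_add (v w : Fin n ⊕ Fin n → F) : aa (v + w) = aa v + aa w := rfl
@[simp] theorem bb_add (v w : Fin n ⊕ Fin n → F) : bb (v + w) = bb v + bb w := rfl
@[simp] theorem aa_neg (v : Fin n ⊕ Fin n → F) : aa (-v) = - aa v := rfl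
@[simp] theorem bb_neg (v : Fin n ⊕ Fin n → F) : bb (-v) = - bb v := rfl
@[simp] theorem aa_zero : aa (0 : Fin n ⊕ Fin n → F) = 0 := rfl
@[simp] theorem bb_zero : bb (0 : Fin n ⊕ Fin n → F) = 0 := rfl

theorem sympForm_eq (u v : Fin n ⊕ Fin n → F) :
    sympForm n F u v = bb u ⬝ᵥ aa v - aa u ⬝ᵥ bb v := by
  rw [sympForm_apply, Finset.sum_sub_distrib]
  rfl

/-- The vector with parts `a, b`. -/
def mkV (a b : Fin n → F) : Fin n ⊕ Fin n → F := Sum.elim a b

@[simp] theorem aa_mkV (a b : Fin n → F) : aa (mkV a b) = a := rfl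
@[simp] theorem bb_mkV (a b : Fin n → F) : bb (mkV a b) = b := rfl

theorem ext_ab {v w : Fin n ⊕ Fin n → F} (h1 : aa v = aa w) (h2 : bb v = bb w) : v = w := by
  funext i
  rcases i with i | i
  · exact congrFun h1 i
  · exact congrFun h2 i

variable (ψ : AddChar F ℂ)

/-- The Schrödinger operators. -/
noncomputable def pi (v : Fin n ⊕ Fin n → F) : Module.End ℂ ((Fin n → F) → ℂ) where
  toFun f x := ψ (bb v ⬝ᵥ x + 2⁻¹ * (aa v ⬝ᵥ bb v)) * f (x + aa v)
  map_add' f g := by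
    funext x
    simp [mul_add]
  map_smul' c f := by
    funext x
    simp only [Pi.smul_apply, smul_eq_mul, RingHom.id_apply]
    ring

@[simp] theorem pi_apply (v : Fin n ⊕ Fin n → F) (f : (Fin n → F) → ℂ) (x : Fin n → F) :
    pi ψ v f x = ψ (bb v ⬝ᵥ x + 2⁻¹ * (aa v ⬝ᵥ bb v)) * f (x + aa v) := rfl

theorem pi_zero : pi ψ (0 : Fin n ⊕ Fin n → F) = 1 := by
  ext f x
  simp

theorem pi_mul (h2 : (2 : F) ≠ 0) (v w : Fin n ⊕ Fin n → F) :
    pi ψ v * pi ψ w = ψ (-(2⁻¹ * sympForm n F v w)) • pi ψ (v + w) := by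
  apply LinearMap.ext
  intro f
  funext x
  simp only [Module.End.mul_apply, pi_apply, LinearMap.smul_apply, Pi.smul_apply, smul_eq_mul]
  rw [← mul_assoc, ← AddChar.map_add_eq_mul, ← mul_assoc, ← AddChar.map_add_eq_mul]
  simp only [aa_add, bb_add]
  rw [add_assoc x]
  congr 2
  rw [sympForm_eq]
  simp only [dotProduct_add, add_dotProduct]
  have h3 : (2 : F)⁻¹ * 2 = 1 := inv_mul_cancel₀ h2
  have e1 : bb v ⬝ᵥ aa w = aa w ⬝ᵥ bb v := dotProduct_comm _ _
  have e2 : bb w ⬝ᵥ aa v = aa v ⬝ᵥ bb w := dotProduct_comm _ _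
  rw [e1, e2]
  linear_combination (-(aa v ⬝ᵥ bb w)) * h3

theorem sympForm_self' (v : Fin n ⊕ Fin n → F) : sympForm n F v v = 0 := sympForm_self v

theorem pi_mul_neg (h2 : (2 : F) ≠ 0) (v : Fin n ⊕ Fin n → F) : pi ψ v * pi ψ (-v) = 1 := by
  rw [pi_mul ψ h2, add_neg_cancel, pi_zero, sympForm_eq]
  simp only [aa_neg, bb_neg, dotProduct_neg]
  have e1 : bb v ⬝ᵥ aa v = aa v ⬝ᵥ bb v := dotProduct_comm _ _
  rw [e1]
  have : -(2⁻¹ * (-(aa v ⬝ᵥ bb v) - -(aa v ⬝ᵥ bb v))) = (0 : F) := by ring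
  rw [this]
  simp

theorem pi_neg_mul (h2 : (2 : F) ≠ 0) (v : Fin n ⊕ Fin n → F) : pi ψ (-v) * pi ψ v = 1 := by
  have := pi_mul_neg ψ h2 (-v)
  rwa [neg_neg] at this

/-! ### Characters -/

/-- `x ↦ ψ(b·x)` as an additive character. -/
noncomputable def dotChar (b : Fin n → F) : AddChar (Fin n → F) ℂ where
  toFun x := ψ (b ⬝ᵥ x)
  map_zero_eq_one' := by simp
  map_add_eq_mul' x y := by
    rw [dotProduct_add, AddChar.map_add_eq_mul]

@[simp] theorem dotChar_apply (b x : Fin n → F) : dotChar ψ b x = ψ (b ⬝ᵥ x) := rfl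

variable {ψ}

theorem exists_dot_eq_one {b : Fin n → F} (hb : b ≠ 0) : ∃ x : Fin n → F, b ⬝ᵥ x = 1 := by
  classical
  obtain ⟨i, hi⟩ := Function.ne_iff.mp hb
  refine ⟨Pi.single i (b i)⁻¹, ?_⟩
  rw [dotProduct_single]
  exact mul_inv_cancel₀ hi

theorem sum_dotChar (hψ : ψ 1 ≠ 1) {b : Fin n → F} (hb : b ≠ 0) :
    ∑ x, ψ (b ⬝ᵥ x) = 0 := by
  have h1 : dotChar ψ b ≠ 0 := by
    intro h
    obtain ⟨x, hx⟩ := exists_dot_eq_one hb
    apply hψ
    have h2 := DFunLike.congr_fun h x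
    rw [dotChar_apply, hx] at h2
    exact h2
  exact AddChar.sum_eq_zero_iff_ne_zero.mpr h1

theorem sum_dotChar_ite (hψ : ψ 1 ≠ 1) (b : Fin n → F) :
    ∑ x, ψ (b ⬝ᵥ x) = if b = 0 then (Fintype.card F ^ n : ℂ) else 0 := by
  split_ifs with hb
  · subst hb
    simp
  · exact sum_dotChar hψ hb

theorem psi_ne_zero (t : F) : ψ t ≠ 0 := by
  intro h5
  have h6 : ψ t * ψ (-t) = 1 := by
    rw [← AddChar.map_add_eq_mul]
    simp
  rw [h5, zero_mul] at h6
  exact zero_ne_one h6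

/-! ### Traces -/

/-- The trace of a monomial operator. -/
theorem trace_monomial {X : Type*} [Fintype X] [DecidableEq X] (T : Module.End ℂ (X → ℂ)) (c : X → ℂ)
    (σ : X → X) (hT : ∀ f x, T f x = c x * f (σ x)) :
    LinearMap.trace ℂ (X → ℂ) T = ∑ x, if σ x = x then c x else 0 := by
  rw [LinearMap.trace_eq_matrix_trace ℂ (Pi.basisFun ℂ X)]
  simp only [Matrix.trace, Matrix.diag, LinearMap.toMatrix_apply, Pi.basisFun_repr, Pi.basisFun_apply]
  refine Finset.sum_congr rfl fun x _ => ?_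
  rw [hT, Pi.single_apply]
  simp

variable (ψ) in
theorem trace_pi_zero : LinearMap.trace ℂ _ (pi ψ (0 : Fin n ⊕ Fin n → F)) =
    (Fintype.card F ^ n : ℂ) := by
  rw [pi_zero, LinearMap.trace_one]
  simp

theorem trace_pi (hψ : ψ 1 ≠ 1) {v : Fin n ⊕ Fin n → F} (hv : v ≠ 0) :
    LinearMap.trace ℂ _ (pi ψ v) = 0 := by
  rw [trace_monomial (pi ψ v) (fun x => ψ (bb v ⬝ᵥ x + 2⁻¹ * (aa v ⬝ᵥ bb v))) (fun x => x + aa v)
    (fun f x => rfl)]
  by_cases ha : aa v = 0
  · have hb : bb v ≠ 0 := by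
      intro hb
      apply hv
      exact ext_ab ha hb
    simp only [ha, add_zero, if_true, dotProduct_zero, zero_dotProduct, mul_zero]
    exact sum_dotChar hψ hb
  · apply Finset.sum_eq_zero
    intro x _
    rw [if_neg]
    intro h
    exact ha (add_eq_left.mp h)

/-! ### The commutant -/

section
variable {T : Module.End ℂ ((Fin n → F) → ℂ)}

theorem single_of_commute (hψ : ψ 1 ≠ 1) (hT : ∀ v, T * pi ψ v = pi ψ v * T) (x y : Fin n → F)
    (hxy : y ≠ x) : T (Pi.single x 1) y = 0 := by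
  classical
  have hne : y - x ≠ 0 := sub_ne_zero.mpr hxy
  obtain ⟨b, hb⟩ : ∃ b : Fin n → F, b ⬝ᵥ (y - x) = 1 := by
    obtain ⟨b, hb⟩ := exists_dot_eq_one hne
    exact ⟨b, by rw [dotProduct_comm]; exact hb⟩
  have h1 := congrArg (fun S : Module.End ℂ ((Fin n → F) → ℂ) => S (Pi.single x 1) y) (hT (mkV 0 b))
  simp only [Module.End.mul_apply] at h1
  have h2 : pi ψ (mkV 0 b) (Pi.single x 1) = ψ (b ⬝ᵥ x) • (Pi.single x (1 : ℂ)) := by
    funext z
    simp only [pi_apply, aa_mkV, bb_mkV, add_zero, zero_dotProduct, mul_zero, Pi.smul_apply, smul_eq_mul,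
      Pi.single_apply]
    split_ifs with hz
    · rw [hz]
    · simp
  rw [h2, map_smul, Pi.smul_apply, pi_apply] at h1
  simp only [aa_mkV, bb_mkV, add_zero, zero_dotProduct, mul_zero, smul_eq_mul] at h1
  have h3 : b ⬝ᵥ y = 1 + b ⬝ᵥ x := by
    rw [dotProduct_sub] at hb
    linear_combination hb
  rw [h3, AddChar.map_add_eq_mul] at h1
  by_contra h4
  apply hψ
  have h5 : ψ 1 * (ψ (b ⬝ᵥ x) * T (Pi.single x 1) y) = 1 * (ψ (b ⬝ᵥ x) * T (Pi.single x 1) y) := by
    linear_combination -h1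
  exact mul_right_cancel₀ (mul_ne_zero (psi_ne_zero _) h4) h5

theorem translate_single (a x : Fin n → F) :
    pi ψ (mkV a 0) (Pi.single x 1) = (Pi.single (x - a) 1 : (Fin n → F) → ℂ) := by
  classical
  funext z
  simp only [pi_apply, aa_mkV, bb_mkV, zero_dotProduct, dotProduct_zero, mul_zero, add_zero,
    AddChar.map_zero_eq_one, one_mul, Pi.single_apply]
  have : z + a = x ↔ z = x - a := by
    constructor
    · intro h
      rw [← h]
      abel
    · intro h
      rw [h]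
      abel
  simp [this]

/-- **The commutant of the Schrödinger operators is scalar.** -/
theorem eq_scalar_of_commute (hψ : ψ 1 ≠ 1) (hT : ∀ v, T * pi ψ v = pi ψ v * T) :
    ∃ c : ℂ, T = c • 1 := by
  classical
  refine ⟨T (Pi.single 0 1) 0, ?_⟩
  have hdiag : ∀ x, T (Pi.single x 1) = T (Pi.single x 1) x • (Pi.single x 1 : (Fin n → F) → ℂ) := by
    intro x
    funext y
    by_cases hy : y = x
    · subst hy
      simp
    · rw [single_of_commute hψ hT x y hy]
      simp [hy]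
  have hd : ∀ x, T (Pi.single x 1) x = T (Pi.single 0 1) 0 := by
    intro x
    have h1 := congrArg (fun S : Module.End ℂ ((Fin n → F) → ℂ) => S (Pi.single x 1) 0) (hT (mkV x 0))
    simp only [Module.End.mul_apply, translate_single] at h1
    rw [sub_self] at h1
    rw [h1]
    simp
  apply LinearMap.pi_ext'
  intro x
  apply LinearMap.ext_ring
  simp only [LinearMap.coe_comp, Function.comp_apply, LinearMap.coe_single, LinearMap.smul_apply,
    Module.End.one_apply]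
  rw [hdiag x, hd]

/-- **Invariant subspaces of the Schrödinger operators.** -/
theorem eq_top_of_invariant (hψ : ψ 1 ≠ 1) (K : Submodule ℂ ((Fin n → F) → ℂ))
    (hK : ∀ v, ∀ f ∈ K, pi ψ v f ∈ K) (hK0 : K ≠ ⊥) : K = ⊤ := by
  classical
  obtain ⟨f, hf, hf0⟩ := Submodule.exists_mem_ne_zero_of_ne_bot hK0
  obtain ⟨x₀, hx₀⟩ := Function.ne_iff.mp hf0
  have hq : (Fintype.card F ^ n : ℂ) ≠ 0 := by
    apply pow_ne_zero
    exact_mod_cast Fintype.card_ne_zero
  have h1 : (∑ b : Fin n → F, ψ (-(b ⬝ᵥ x₀)) • pi ψ (mkV 0 b) f) =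
      (Fintype.card F ^ n * f x₀) • (Pi.single x₀ 1 : (Fin n → F) → ℂ) := by
    funext z
    simp only [Finset.sum_apply, Pi.smul_apply, pi_apply, aa_mkV, bb_mkV, add_zero, zero_dotProduct,
      mul_zero, smul_eq_mul]
    have h2 : ∀ b : Fin n → F, ψ (-(b ⬝ᵥ x₀)) * (ψ (b ⬝ᵥ z) * f z) = ψ ((z - x₀) ⬝ᵥ b) * f z := by
      intro b
      rw [← mul_assoc, ← AddChar.map_add_eq_mul]
      congr 2
      rw [sub_dotProduct, dotProduct_comm z, dotProduct_comm x₀]
      ring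
    simp_rw [h2]
    rw [← Finset.sum_mul, sum_dotChar_ite hψ]
    by_cases hz : z = x₀
    · subst hz
      simp
    · rw [if_neg (sub_ne_zero.mpr hz)]
      simp [hz]
  have h2 : (Pi.single x₀ 1 : (Fin n → F) → ℂ) ∈ K := by
    have h3 : (∑ b : Fin n → F, ψ (-(b ⬝ᵥ x₀)) • pi ψ (mkV 0 b) f) ∈ K :=
      Submodule.sum_mem _ fun b _ => K.smul_mem _ (hK _ _ hf)
    rw [h1] at h3
    exact (K.smul_mem_iff (mul_ne_zero hq hx₀)).mp h3
  have h3 : ∀ x, (Pi.single x 1 : (Fin n → F) → ℂ) ∈ K := by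
    intro x
    have h4 := hK (mkV (x₀ - x) 0) _ h2
    rw [translate_single] at h4
    simpa using h4
  rw [eq_top_iff]
  intro g _
  have h4 : g = ∑ x, g x • (Pi.single x 1 : (Fin n → F) → ℂ) := by
    funext z
    simp [Finset.sum_apply, Pi.single_apply]
  rw [h4]
  exact Submodule.sum_mem _ fun x _ => K.smul_mem _ (h3 x)

end

end Cfsg.Agent.Lib.MinDeg.Weil.Heis
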