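import Mathlib

/-!
# Lifting a projective representation which splits over a subgroup of coprime index

A subgroup `E ≤ G × GL(W)`, a central extension of `G` by the scalars, whose extension splits over a
subgroup `P` of index prime to `dim W`, is split.  Transfer and the determinant give a retraction to
the scalars.
-/

set_option autoImplicit false
set_option linter.unusedSectionVars false
set_option linter.unusedSimpArgs false
set_option linter.unusedVariables false

namespace Cfsg.Agent.Lib.MinDeg.Weil.Lift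

variable {G : Type*} [Group G] {W : Type*} [AddCommGroup W] [Module ℂ W] [FiniteDimensional ℂ W]

/-- The scalar operators, as units. -/
noncomputable def scal (W : Type*) [AddCommGroup W] [Module ℂ W] : ℂˣ →* (Module.End ℂ W)ˣ :=
  Units.map (algebraMap ℂ (Module.End ℂ W)).toMonoidHom

@[simp] theorem scal_coe (z : ℂˣ) : ((scal W z : (Module.End ℂ W)ˣ) : Module.End ℂ W) = (z : ℂ) • 1 := by
  ext v
  simp [scal]

theorem scal_central (z : ℂˣ) (M : (Module.End ℂ W)ˣ) : scal W z * M = M * scal W z := by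
  apply Units.ext
  simp

/-- The projection `E → G`. -/
def fstE (E : Subgroup (G × (Module.End ℂ W)ˣ)) : E →* G := (MonoidHom.fst G _).comp E.subtype

/-- The determinant on `E`. -/
noncomputable def detE (E : Subgroup (G × (Module.End ℂ W)ˣ)) : E →* ℂˣ :=
  (Units.map (LinearMap.det : Module.End ℂ W →* ℂ)).comp ((MonoidHom.snd G _).comp E.subtype)

theorem detE_scal (E : Subgroup (G × (Module.End ℂ W)ˣ)) (z : ℂˣ) (hz : ((1 : G), scal W z) ∈ E) :
    detE E ⟨_, hz⟩ = z ^ Module.finrank ℂ W := by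
  apply Units.ext
  simp [detE, LinearMap.det_smul]

/-- **The lifting theorem.** -/
theorem exists_lift (E : Subgroup (G × (Module.End ℂ W)ˣ))
    (hsurj : ∀ g, ∃ M, (g, M) ∈ E)
    (hker : ∀ M, ((1 : G), M) ∈ E → ∃ z : ℂˣ, M = scal W z)
    (hz : ∀ z : ℂˣ, ((1 : G), scal W z) ∈ E)
    (P : Subgroup G) [P.FiniteIndex] (hcop : Nat.Coprime P.index (Module.finrank ℂ W))
    (hmem : ∀ z : ℂˣ, (⟨_, hz z⟩ : E) ∈ P.comap (fstE E))
    (r : (P.comap (fstE E)) →* ℂˣ) (hr : ∀ z, r ⟨⟨_, hz z⟩, hmem z⟩ = z) :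
    ∃ ω : G →* (Module.End ℂ W)ˣ, ∀ g, (g, ω g) ∈ E := by
  classical
  have hfst : Function.Surjective (fstE E) := by
    intro g
    obtain ⟨M, hM⟩ := hsurj g
    exact ⟨⟨(g, M), hM⟩, rfl⟩
  let H := P.comap (fstE E)
  have hindex : H.index = P.index := Subgroup.index_comap_of_surjective P hfst
  haveI : H.FiniteIndex := ⟨by rw [hindex]; exact Subgroup.FiniteIndex.index_ne_zero⟩
  let ez : ℂˣ → E := fun z => ⟨_, hz z⟩
  have hezmul : ∀ z z', ez (z * z') = ez z * ez z' := by
    intro z z'
    apply Subtype.ext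
    apply Prod.ext
    · simp [ez]
    · simp [ez]
  have hezpow : ∀ (z : ℂˣ) (k : ℕ), ez z ^ k = ez (z ^ k) := by
    intro z k
    induction k with
    | zero =>
      apply Subtype.ext
      apply Prod.ext
      · simp [ez]
      · simp [ez]
    | succ k ih => rw [pow_succ, pow_succ, ih, hezmul]
  have hcentral : ∀ (z : ℂˣ) (e : E), ez z * e = e * ez z := by
    intro z e
    apply Subtype.ext
    apply Prod.ext
    · simp [ez]
    · simp [ez, scal_central]
  let V : E →* ℂˣ := MonoidHom.transfer r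
  have hV : ∀ z, V (ez z) = z ^ P.index := by
    intro z
    have key : ∀ (k : ℕ) (g₀ : E), g₀⁻¹ * ez z ^ k * g₀ ∈ H → g₀⁻¹ * ez z ^ k * g₀ = ez z ^ k := by
      intro k g₀ _
      rw [hezpow, mul_assoc, hcentral]
      group
    have h1 := MonoidHom.transfer_eq_pow r (ez z) key
    have h2 : (⟨ez z ^ H.index, MonoidHom.transfer_eq_pow_aux (ez z) key⟩ : H) =
        ⟨ez (z ^ H.index), hmem _⟩ := Subtype.ext (hezpow z _)
    show MonoidHom.transfer r (ez z) = _
    rw [h1, h2]
    have h3 := hr (z ^ H.index)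
    rw [hindex] at h3 ⊢
    exact h3
  let D : E →* ℂˣ := detE E
  have hD : ∀ z, D (ez z) = z ^ Module.finrank ℂ W := fun z => detE_scal E z (hz z)
  -- Bezout
  obtain ⟨a, b, hab⟩ : ∃ a b : ℤ, (P.index : ℤ) * a + (Module.finrank ℂ W : ℤ) * b = 1 := by
    refine ⟨Nat.gcdA P.index (Module.finrank ℂ W), Nat.gcdB P.index (Module.finrank ℂ W), ?_⟩
    have := Nat.gcd_eq_gcd_ab P.index (Module.finrank ℂ W)
    rw [hcop] at this
    simpa using this.symm
  let lam : E →* ℂˣ := V ^ a * D ^ b
  have hlam : ∀ z, lam (ez z) = z := by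
    intro z
    show (V ^ a * D ^ b) (ez z) = z
    rw [MonoidHom.mul_apply, MonoidHom.zpow_apply, MonoidHom.zpow_apply, hV, hD, ← zpow_natCast,
      ← zpow_natCast, ← zpow_mul, ← zpow_mul, ← zpow_add, hab, zpow_one]
  -- the normalised operator
  let nrm : E → (Module.End ℂ W)ˣ := fun e => scal W (lam e)⁻¹ * e.1.2
  have hnrmmul : ∀ e e' : E, nrm (e * e') = nrm e * nrm e' := by
    intro e e'
    simp only [nrm]
    rw [map_mul, mul_inv, map_mul]
    have h1 : ((e * e' : E) : G × (Module.End ℂ W)ˣ).2 = e.1.2 * e'.1.2 := rfl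
    rw [h1]
    have h2 := scal_central (W := W) (lam e')⁻¹ e.1.2
    calc scal W (lam e)⁻¹ * scal W (lam e')⁻¹ * (e.1.2 * e'.1.2)
        = scal W (lam e)⁻¹ * (scal W (lam e')⁻¹ * e.1.2) * e'.1.2 := by group
      _ = scal W (lam e)⁻¹ * (e.1.2 * scal W (lam e')⁻¹) * e'.1.2 := by rw [h2]
      _ = _ := by group
  have hnrmfst : ∀ e e' : E, fstE E e = fstE E e' → nrm e = nrm e' := by
    intro e e' h
    have h1 : ((1 : G), (e⁻¹ * e').1.2) ∈ E := by
      have h2 : (e⁻¹ * e').1.1 = 1 := by
        have : fstE E (e⁻¹ * e') = 1 := by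
          rw [map_mul, map_inv, h, inv_mul_cancel]
        exact this
      have h3 := (e⁻¹ * e').2
      have h4 : (e⁻¹ * e').1 = ((1 : G), (e⁻¹ * e').1.2) := Prod.ext h2 rfl
      rwa [h4] at h3
    obtain ⟨z, hzz⟩ := hker _ h1
    have h5 : e⁻¹ * e' = ez z := by
      apply Subtype.ext
      apply Prod.ext
      · have : fstE E (e⁻¹ * e') = 1 := by
          rw [map_mul, map_inv, h, inv_mul_cancel]
        exact this
      · exact hzz
    have h6 : e' = e * ez z := by
      rw [← h5]
      group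
    have h7 : nrm (ez z) = 1 := by
      simp only [nrm]
      rw [hlam]
      show scal W z⁻¹ * scal W z = 1
      rw [← map_mul, inv_mul_cancel, map_one]
    rw [h6, hnrmmul, h7, mul_one]
  choose sec hsec using hsurj
  let es : G → E := fun g => ⟨(g, sec g), hsec g⟩
  have hes : ∀ g, fstE E (es g) = g := fun g => rfl
  refine ⟨MonoidHom.mk' (fun g => nrm (es g)) ?_, ?_⟩
  · intro g g'
    rw [← hnrmmul]
    apply hnrmfst
    rw [map_mul, hes, hes, hes]
  · intro g
    have h1 : (g, nrm (es g)) = (((1 : G), scal W (lam (es g))⁻¹) * (g, sec g) : G × (Module.End ℂ W)ˣ) := by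
      apply Prod.ext
      · simp
      · rfl
    show (g, nrm (es g)) ∈ E
    rw [h1]
    exact E.mul_mem (hz _) (hsec g)

end Cfsg.Agent.Lib.MinDeg.Weil.Lift
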