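import Mathlib
import Cfsg.Agent.Lib.MinDeg.Weil.Heis
import Cfsg.Agent.Lib.MinDeg.Weil.Lift
import Cfsg.Agent.Lib.Classical.Symp.Borel

/-!
# The Weil representation on all functions

For each `g ∈ Sp_{2n}(F)` there is an invertible operator implementing `g` on the Schrödinger
operators; the resulting central extension of `Sp` splits over the stabiliser of a Lagrangian, hence
it splits.
-/

set_option autoImplicit false
set_option linter.unusedSectionVars false
set_option linter.unusedSimpArgs false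
set_option linter.unusedVariables false

namespace Cfsg.Agent.Lib.MinDeg.Weil.Inter

open Matrix Cfsg Cfsg.Agent.Lib.Classical.Symp.Basic
open Cfsg.Agent.Lib.MinDeg.Weil.Heis Cfsg.Agent.Lib.MinDeg.Weil.Lift

variable {F : Type*} [Field F] [Fintype F] [DecidableEq F] {n : ℕ}

/-- The action of `Sp` on vectors. -/
abbrev gv (g : symplecticGroup (Fin n) F) (v : Fin n ⊕ Fin n → F) : Fin n ⊕ Fin n → F :=
  (g : Matrix (Fin n ⊕ Fin n) (Fin n ⊕ Fin n) F) *ᵥ v

theorem gv_mul (g g' : symplecticGroup (Fin n) F) (v : Fin n ⊕ Fin n → F) :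
    gv (g * g') v = gv g (gv g' v) := by
  simp [gv, Matrix.mulVec_mulVec]

theorem gv_one (v : Fin n ⊕ Fin n → F) : gv (1 : symplecticGroup (Fin n) F) v = v := by
  simp [gv]

theorem gv_inv_gv (g : symplecticGroup (Fin n) F) (v : Fin n ⊕ Fin n → F) : gv g⁻¹ (gv g v) = v := by
  rw [← gv_mul, inv_mul_cancel, gv_one]

theorem gv_gv_inv (g : symplecticGroup (Fin n) F) (v : Fin n ⊕ Fin n → F) : gv g (gv g⁻¹ v) = v := by
  rw [← gv_mul, mul_inv_cancel, gv_one]

theorem gv_add (g : symplecticGroup (Fin n) F) (v w : Fin n ⊕ Fin n → F) :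
    gv g (v + w) = gv g v + gv g w := Matrix.mulVec_add _ _ _

theorem form_gv (g : symplecticGroup (Fin n) F) (v w : Fin n ⊕ Fin n → F) :
    sympForm n F (gv g v) (gv g w) = sympForm n F v w :=
  mem_symplecticGroup_iff_forall.mp g.2 v w

theorem form_swap (v w : Fin n ⊕ Fin n → F) : sympForm n F v w = - sympForm n F w v := by
  rw [sympForm_eq, sympForm_eq, dotProduct_comm (bb v), dotProduct_comm (aa v)]
  ring

theorem form_add_left (u v w : Fin n ⊕ Fin n → F) :
    sympForm n F (u + v) w = sympForm n F u w + sympForm n F v w := by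
  simp only [sympForm_eq, aa_add, bb_add, add_dotProduct]
  ring

theorem form_neg_left (v w : Fin n ⊕ Fin n → F) : sympForm n F (-v) w = - sympForm n F v w := by
  simp only [sympForm_eq, aa_neg, bb_neg, neg_dotProduct]
  ring

variable (ψ : AddChar F ℂ)

/-- The averaged intertwiner. -/
noncomputable def avg (g : symplecticGroup (Fin n) F) : Module.End ℂ ((Fin n → F) → ℂ) :=
  ∑ v : Fin n ⊕ Fin n → F, pi ψ (gv g v) * pi ψ (-v)

theorem avg_mul (h2 : (2 : F) ≠ 0) (g : symplecticGroup (Fin n) F) (w : Fin n ⊕ Fin n → F) :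
    avg ψ g * pi ψ w = pi ψ (gv g w) * avg ψ g := by
  simp only [avg]
  rw [Finset.sum_mul, Finset.mul_sum, ← Equiv.sum_comp (Equiv.addLeft w)]
  refine Finset.sum_congr rfl fun v _ => ?_
  simp only [Equiv.coe_addLeft]
  rw [mul_assoc, pi_mul ψ h2 (-(w + v)) w, ← mul_assoc (pi ψ (gv g w)), pi_mul ψ h2 (gv g w) (gv g v),
    ← gv_add]
  have e1 : -(w + v) + w = -v := by abel
  rw [e1, mul_smul_comm, smul_mul_assoc, form_gv]
  congr 2
  rw [show -(w + v) = -w + -v by abel, form_add_left, form_neg_left, form_neg_left,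
    sympForm_self' w, form_swap v w]
  ring

variable {ψ}

theorem trace_avg (h2 : (2 : F) ≠ 0) (hψ : ψ 1 ≠ 1) (g : symplecticGroup (Fin n) F) :
    LinearMap.trace ℂ _ (avg ψ g) =
      ((Finset.univ.filter (fun v : Fin n ⊕ Fin n → F => gv g v = v)).card : ℂ) * (Fintype.card F ^ n : ℂ) := by
  simp only [avg, map_sum]
  rw [Finset.card_filter, Nat.cast_sum, Finset.sum_mul]
  refine Finset.sum_congr rfl fun v _ => ?_
  rw [pi_mul ψ h2, map_smul]
  by_cases hv : gv g v = v
  · rw [hv, add_neg_cancel, trace_pi_zero, form_swap, form_neg_left, sympForm_self' v]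
    simp
  · rw [trace_pi hψ (by
      intro h
      apply hv
      exact (add_neg_eq_zero.mp h))]
    simp [hv]

theorem avg_ne_zero (h2 : (2 : F) ≠ 0) (hψ : ψ 1 ≠ 1) (g : symplecticGroup (Fin n) F) :
    avg ψ g ≠ 0 := by
  intro h
  have h1 := trace_avg h2 hψ g
  rw [h, map_zero] at h1
  have h3 : (Finset.univ.filter (fun v : Fin n ⊕ Fin n → F => gv g v = v)).card ≠ 0 := by
    rw [Finset.card_ne_zero]
    exact ⟨0, by simp [gv]⟩
  have h4 : (Fintype.card F ^ n : ℂ) ≠ 0 := by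
    apply pow_ne_zero
    exact_mod_cast Fintype.card_ne_zero
  have h5 := (mul_ne_zero (Nat.cast_ne_zero.mpr h3) h4)
  exact h5 h1.symm

/-- The averaged intertwiner is invertible. -/
theorem exists_unit (h2 : (2 : F) ≠ 0) (hψ : ψ 1 ≠ 1) (g : symplecticGroup (Fin n) F) :
    ∃ M : (Module.End ℂ ((Fin n → F) → ℂ))ˣ, ∀ w,
      (M : Module.End ℂ ((Fin n → F) → ℂ)) * pi ψ w = pi ψ (gv g w) * (M : Module.End ℂ ((Fin n → F) → ℂ)) := by
  have hinj : LinearMap.ker (avg ψ g) = ⊥ := by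
    by_contra hne
    have h1 : LinearMap.ker (avg ψ g) = ⊤ := by
      apply eq_top_of_invariant hψ _ _ hne
      intro v f hf
      rw [LinearMap.mem_ker] at hf ⊢
      have h2' := congrArg (fun S : Module.End ℂ ((Fin n → F) → ℂ) => S f) (avg_mul ψ h2 g v)
      simp only [Module.End.mul_apply, hf, map_zero] at h2'
      exact h2'
    apply avg_ne_zero h2 hψ g
    exact LinearMap.ker_eq_top.mp h1
  have hunit : IsUnit (avg ψ g) := by
    rw [Module.End.isUnit_iff]
    have h1 := LinearMap.ker_eq_bot.mp hinj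
    exact ⟨h1, LinearMap.injective_iff_surjective.mp h1⟩
  obtain ⟨M, hM⟩ := hunit
  refine ⟨M, fun w => ?_⟩
  rw [hM]
  exact avg_mul ψ h2 g w

/-! ### The extension -/

variable (ψ) in
/-- The extension: pairs `(g, M)` with `M` implementing `g`. -/
def ext (h2 : (2 : F) ≠ 0) (n : ℕ) :
    Subgroup (symplecticGroup (Fin n) F × (Module.End ℂ ((Fin n → F) → ℂ))ˣ) where
  carrier := {e | ∀ w, (e.2 : Module.End ℂ ((Fin n → F) → ℂ)) * pi ψ w =
    pi ψ (gv e.1 w) * (e.2 : Module.End ℂ ((Fin n → F) → ℂ))}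
  mul_mem' := by
    rintro ⟨g, M⟩ ⟨g', M'⟩ he he' w
    simp only [Set.mem_setOf_eq] at he he'
    simp only [Prod.mk_mul_mk, Units.val_mul]
    rw [mul_assoc, he' w, ← mul_assoc, he (gv g' w), mul_assoc, gv_mul]
  one_mem' := by
    intro w
    simp [gv_one]
  inv_mem' := by
    rintro ⟨g, M⟩ he w
    simp only [Set.mem_setOf_eq] at he
    simp only [Prod.inv_mk]
    have h1 := he (gv g⁻¹ w)
    rw [gv_gv_inv] at h1
    calc (↑M⁻¹ : Module.End ℂ ((Fin n → F) → ℂ)) * pi ψ w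
        = (↑M⁻¹ : Module.End ℂ ((Fin n → F) → ℂ)) * (pi ψ w * (↑M * ↑M⁻¹)) := by
          rw [Units.mul_inv, mul_one]
      _ = (↑M⁻¹ : Module.End ℂ ((Fin n → F) → ℂ)) * (pi ψ w * ↑M) * ↑M⁻¹ := by
          simp only [mul_assoc]
      _ = (↑M⁻¹ : Module.End ℂ ((Fin n → F) → ℂ)) * (↑M * pi ψ (gv g⁻¹ w)) * ↑M⁻¹ := by rw [h1]
      _ = _ := by
          rw [← mul_assoc, Units.inv_mul, one_mul]

theorem mem_ext {h2 : (2 : F) ≠ 0} {e : symplecticGroup (Fin n) F × (Module.End ℂ ((Fin n → F) → ℂ))ˣ} :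
    e ∈ ext ψ h2 n ↔ ∀ w, (e.2 : Module.End ℂ ((Fin n → F) → ℂ)) * pi ψ w =
      pi ψ (gv e.1 w) * (e.2 : Module.End ℂ ((Fin n → F) → ℂ)) := Iff.rfl

theorem ext_surj (h2 : (2 : F) ≠ 0) (hψ : ψ 1 ≠ 1) (g : symplecticGroup (Fin n) F) :
    ∃ M, (g, M) ∈ ext ψ h2 n := exists_unit h2 hψ g

theorem ext_ker (h2 : (2 : F) ≠ 0) (hψ : ψ 1 ≠ 1) (M : (Module.End ℂ ((Fin n → F) → ℂ))ˣ)
    (hM : ((1 : symplecticGroup (Fin n) F), M) ∈ ext ψ h2 n) : ∃ z : ℂˣ, M = scal _ z := by
  obtain ⟨c, hc⟩ := eq_scalar_of_commute (T := (M : Module.End ℂ _)) hψ (fun v => by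
    have := hM v
    simpa [gv_one] using this)
  have hc0 : c ≠ 0 := by
    rintro rfl
    have h1 := M.mul_inv
    rw [hc] at h1
    have h3 := congrArg (fun S : Module.End ℂ ((Fin n → F) → ℂ) => S (fun _ => 1)) h1
    simp only [zero_smul, zero_mul] at h3
    have h4 := congrFun h3 0
    simp at h4
  refine ⟨Units.mk0 c hc0, Units.ext ?_⟩
  rw [hc, scal_coe]
  rfl

theorem ext_scal (h2 : (2 : F) ≠ 0) (z : ℂˣ) :
    ((1 : symplecticGroup (Fin n) F), scal ((Fin n → F) → ℂ) z) ∈ ext ψ h2 n := by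
  intro w
  simp [gv_one]

/-! ### The Lagrangian and its stabiliser -/

/-- The stabiliser of the Lagrangian `b = 0`. -/
def lagStab (n : ℕ) (F : Type*) [Field F] [Fintype F] [DecidableEq F] :
    Subgroup (symplecticGroup (Fin n) F) where
  carrier := {g | ∀ v, bb v = 0 → bb (gv g v) = 0}
  mul_mem' := by
    intro g g' hg hg' v hv
    rw [gv_mul]
    exact hg _ (hg' v hv)
  one_mem' := by
    intro v hv
    rwa [gv_one]
  inv_mem' := by
    intro g hg v hv
    -- the perpendicular of the Lagrangian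
    funext i
    classical
    have h1 := form_gv g (gv g⁻¹ v) (mkV (Pi.single i 1) 0)
    rw [gv_gv_inv] at h1
    have h3 : bb (gv g (mkV (Pi.single i 1) 0)) = 0 := hg _ rfl
    have h4 : sympForm n F v (gv g (mkV (Pi.single i 1) 0)) = 0 := by
      rw [sympForm_eq, hv, h3]
      simp
    rw [h4, sympForm_eq] at h1
    simp only [aa_mkV, bb_mkV, dotProduct_zero, sub_zero, dotProduct_single, mul_one] at h1
    exact h1.symm

theorem mem_lagStab {g : symplecticGroup (Fin n) F} :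
    g ∈ lagStab n F ↔ ∀ v, bb v = 0 → bb (gv g v) = 0 := Iff.rfl

theorem bo_le_lagStab (hn : 1 ≤ n) :
    Cfsg.Agent.Lib.Classical.Symp.Borel.bo n F ≤ lagStab n F := by
  intro g hg v hv
  rw [Cfsg.Agent.Lib.Classical.Symp.Borel.mem_bo] at hg
  have h1 := hg ⟨n - 1, by omega⟩ v
  have hv' : v ∈ Cfsg.Agent.Lib.Classical.Symp.Borel.fl n F (((⟨n - 1, by omega⟩ : Fin n) : ℕ) + 1) := by
    refine ⟨fun i hi => ?_, fun i => congrFun hv i⟩
    have := i.2
    simp only at hi
    omega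
  have h3 := (h1.mp hv').2
  funext i
  exact h3 i

/-- The index of the stabiliser of the Lagrangian is prime to `q`. -/
theorem coprime_index (hn : 1 ≤ n) :
    Nat.Coprime (lagStab n F).index (Fintype.card F) := by
  classical
  set q := Fintype.card F with hq
  have hq1 : 2 ≤ q := Fintype.one_lt_card
  have hqc : Nat.card F = q := Nat.card_eq_fintype_card
  have h1 := Cfsg.Agent.Lib.Classical.Symp.Count.card_symplecticGroup hqc n
  have h3 := Subgroup.card_mul_index (lagStab n F)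
  have h4 := Subgroup.card_dvd_of_le (bo_le_lagStab (F := F) hn)
  rw [Cfsg.Agent.Lib.Classical.Symp.Borel.card_bo hqc] at h4
  obtain ⟨t, ht⟩ := (dvd_trans (Dvd.intro _ rfl) h4 : q ^ (n ^ 2) ∣ Nat.card (lagStab n F))
  rw [h1, ht, mul_assoc] at h3
  have h5 := Nat.eq_of_mul_eq_mul_left (pow_pos (by omega) _) h3
  have h6 : (lagStab n F).index ∣ ∏ i ∈ Finset.range n, (q ^ (2 * (i + 1)) - 1) :=
    Dvd.intro_left _ h5
  refine Nat.Coprime.coprime_dvd_left h6 ?_
  apply Nat.Coprime.prod_left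
  intro i _
  have h7 : q ∣ q ^ (2 * (i + 1)) := dvd_pow_self q (by omega)
  have h8 : 1 ≤ q ^ (2 * (i + 1)) := Nat.one_le_pow _ _ (by omega)
  obtain ⟨m, hm⟩ := h7
  rw [hm]
  have h9 : q * m - 1 + 1 = q * m := by
    rw [← hm]
    omega
  have h10 : Nat.Coprime (q * m - 1) (q * m - 1 + 1) := by
    simp
  rw [h9] at h10
  exact Nat.Coprime.coprime_dvd_right (Dvd.intro _ rfl) h10

/-! ### The retraction over the stabiliser of the Lagrangian -/

/-- The constant function. -/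
def one' (n : ℕ) (F : Type*) : (Fin n → F) → ℂ := fun _ => 1

theorem pi_one' {v : Fin n ⊕ Fin n → F} (hv : bb v = 0) : pi ψ v (one' n F) = one' n F := by
  funext x
  simp [one', hv]

theorem apply_one'_const {h2 : (2 : F) ≠ 0} {e : symplecticGroup (Fin n) F × (Module.End ℂ ((Fin n → F) → ℂ))ˣ}
    (he : e ∈ ext ψ h2 n) (hP : e.1 ∈ lagStab n F) :
    (e.2 : Module.End ℂ ((Fin n → F) → ℂ)) (one' n F) =
      ((e.2 : Module.End ℂ ((Fin n → F) → ℂ)) (one' n F) 0) • one' n F := by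
  set f := (e.2 : Module.End ℂ ((Fin n → F) → ℂ)) (one' n F) with hf
  funext x
  have hinv : e.1⁻¹ ∈ lagStab n F := inv_mem hP
  let w : Fin n ⊕ Fin n → F := mkV x 0
  have h1 := congrArg (fun S : Module.End ℂ ((Fin n → F) → ℂ) => S (one' n F)) (he (gv e.1⁻¹ w))
  simp only [Module.End.mul_apply, gv_gv_inv] at h1
  rw [pi_one' (hinv w rfl)] at h1
  have h3 := congrFun h1 0
  simp only [pi_apply, w, aa_mkV, bb_mkV, zero_dotProduct, dotProduct_zero, mul_zero, add_zero,
    AddChar.map_zero_eq_one, one_mul, zero_add] at h3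
  simp only [Pi.smul_apply, smul_eq_mul, one', mul_one]
  rw [hf, ← h3]

/-- The retraction. -/
noncomputable def retr (h2 : (2 : F) ≠ 0) :
    ((lagStab n F).comap (fstE (ext ψ h2 n))) →* ℂˣ :=
  MonoidHom.mk' (fun x => Units.mk0
    (((x.1.1.2 : (Module.End ℂ ((Fin n → F) → ℂ))ˣ) : Module.End ℂ ((Fin n → F) → ℂ)) (one' n F) 0) (by
      intro h0
      have h1 := apply_one'_const x.1.2 x.2
      rw [h0, zero_smul] at h1
      have h3 : ((x.1.1.2⁻¹ : (Module.End ℂ ((Fin n → F) → ℂ))ˣ) : Module.End ℂ ((Fin n → F) → ℂ))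
          (((x.1.1.2 : (Module.End ℂ ((Fin n → F) → ℂ))ˣ) : Module.End ℂ ((Fin n → F) → ℂ)) (one' n F)) = one' n F := by
        rw [← Module.End.mul_apply, Units.inv_mul]
        rfl
      rw [h1, map_zero] at h3
      have h4 := congrFun h3 0
      simp [one'] at h4)) (by
    intro x y
    apply Units.ext
    simp only [Units.val_mk0, Units.val_mul]
    have h1 := apply_one'_const y.1.2 y.2
    have h3 : ((x * y : ((lagStab n F).comap (fstE (ext ψ h2 n)))).1.1.2 : Module.End ℂ ((Fin n → F) → ℂ)) =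
      (x.1.1.2 : Module.End ℂ ((Fin n → F) → ℂ)) * (y.1.1.2 : Module.End ℂ ((Fin n → F) → ℂ)) := rfl
    rw [h3, Module.End.mul_apply]
    generalize hc : (y.1.1.2 : Module.End ℂ ((Fin n → F) → ℂ)) (one' n F) 0 = c at h1
    rw [h1, map_smul, Pi.smul_apply, smul_eq_mul, mul_comm])

/-- **The Weil representation on all functions.** -/
theorem exists_omega (h2 : (2 : F) ≠ 0) (hψ : ψ 1 ≠ 1) (hn : 1 ≤ n) :
    ∃ ω : symplecticGroup (Fin n) F →* (Module.End ℂ ((Fin n → F) → ℂ))ˣ, ∀ g w,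
      (ω g : Module.End ℂ ((Fin n → F) → ℂ)) * pi ψ w = pi ψ (gv g w) * (ω g : Module.End ℂ ((Fin n → F) → ℂ)) := by
  classical
  have hcop : Nat.Coprime (lagStab n F).index (Module.finrank ℂ ((Fin n → F) → ℂ)) := by
    rw [Module.finrank_fintype_fun_eq_card, Fintype.card_fun, Fintype.card_fin]
    exact Nat.Coprime.pow_right _ (coprime_index hn)
  have hmem : ∀ z : ℂˣ, (⟨_, ext_scal (ψ := ψ) h2 z⟩ : ext ψ h2 n) ∈
      (lagStab n F).comap (fstE (ext ψ h2 n)) := fun z => one_mem (lagStab n F)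
  obtain ⟨ω, hω⟩ := exists_lift (ext ψ h2 n) (ext_surj h2 hψ) (ext_ker h2 hψ) (ext_scal h2) (lagStab n F)
    hcop hmem (retr h2) (fun z => by
      apply Units.ext
      simp [retr, one'])
  exact ⟨ω, fun g w => hω g w⟩

end Cfsg.Agent.Lib.MinDeg.Weil.Inter
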