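import Mathlib
import Cfsg.Agent.Lib.MinDeg.Weil.Inter
import Cfsg.Agent.Lib.MinDeg.SpSiegel

/-!
# The odd part of the Weil representation

The odd functions on `F^n` form an irreducible representation of degree `(q^n - 1)/2` of `Sp_{2n}(q)`.
-/

set_option autoImplicit false
set_option linter.unusedSectionVars false
set_option linter.unusedSimpArgs false
set_option linter.unusedVariables false

namespace Cfsg.Agent.Lib.MinDeg.Weil.Odd

open Matrix Cfsg Cfsg.Agent.Lib.Classical.Symp.Basic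
open Cfsg.Agent.Lib.MinDeg.Weil.Heis Cfsg.Agent.Lib.MinDeg.Weil.Lift Cfsg.Agent.Lib.MinDeg.Weil.Inter
open Cfsg.Agent.Lib.MinDeg.SpSiegel

variable {F : Type*} [Field F] [Fintype F] [DecidableEq F] {n : ℕ}

/-! ### Abstract transport -/

/-- Irreducibility through subspaces. -/
theorem isIrreducible_of {G V : Type*} [Group G] [AddCommGroup V] [Module ℂ V] [Nontrivial V]
    (ρ : Representation ℂ G V)
    (h : ∀ K : Submodule ℂ V, (∀ g, ∀ v ∈ K, ρ g v ∈ K) → K = ⊥ ∨ K = ⊤) : ρ.IsIrreducible := by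
  refine { exists_pair_ne := ⟨⊥, ⊤, ?_⟩, eq_bot_or_eq_top := fun S => ?_ }
  · intro h0
    have h1 := congrArg Subrepresentation.toSubmodule h0
    exact bot_ne_top h1
  · rcases h S.toSubmodule (fun g v hv => S.apply_mem_toSubmodule g hv) with h1 | h1
    · left
      exact Subrepresentation.toSubmodule_injective h1
    · right
      exact Subrepresentation.toSubmodule_injective h1

/-- An irreducible invariant subspace gives a representation on `Fin d → ℂ`. -/
theorem exists_irred_of {G W : Type*} [Group G] [AddCommGroup W] [Module ℂ W] [FiniteDimensional ℂ W]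
    (ω : G →* (Module.End ℂ W)ˣ) (U : Submodule ℂ W)
    (hU : ∀ g, ∀ f ∈ U, (ω g : Module.End ℂ W) f ∈ U)
    (hirr : ∀ K : Submodule ℂ W, K ≤ U → K ≠ ⊥ → (∀ g, ∀ f ∈ K, (ω g : Module.End ℂ W) f ∈ K) → K = U)
    {d : ℕ} (hd : Module.finrank ℂ U = d) (hd0 : 0 < d) :
    ∃ ρ : Representation ℂ G (Fin d → ℂ), ρ.IsIrreducible := by
  let e : U ≃ₗ[ℂ] (Fin d → ℂ) := LinearEquiv.ofFinrankEq _ _ (by simp [hd])
  let ρ : Representation ℂ G (Fin d → ℂ) :=
    { toFun := fun g => e.toLinearMap ∘ₗ (LinearMap.restrict (ω g : Module.End ℂ W) (hU g)) ∘ₗ e.symm.toLinearMap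
      map_one' := by
        apply LinearMap.ext
        intro v
        have h1 : (LinearMap.restrict (ω 1 : Module.End ℂ W) (hU 1)) (e.symm v) = e.symm v := by
          apply Subtype.ext
          simp
        simp only [LinearMap.coe_comp, LinearEquiv.coe_coe, Function.comp_apply, h1]
        simp
      map_mul' := by
        intro g g'
        apply LinearMap.ext
        intro v
        have h1 : (LinearMap.restrict (ω (g * g') : Module.End ℂ W) (hU (g * g'))) (e.symm v) =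
            (LinearMap.restrict (ω g : Module.End ℂ W) (hU g))
              ((LinearMap.restrict (ω g' : Module.End ℂ W) (hU g')) (e.symm v)) := by
          apply Subtype.ext
          simp
        simp only [LinearMap.coe_comp, LinearEquiv.coe_coe, Function.comp_apply, h1, Module.End.mul_apply,
          LinearEquiv.symm_apply_apply] }
  have hρ : ∀ g (u : U), ρ g (e u) = e ((LinearMap.restrict (ω g : Module.End ℂ W) (hU g)) u) := by
    intro g u
    show e ((LinearMap.restrict (ω g : Module.End ℂ W) (hU g)) (e.symm (e u))) = _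
    rw [LinearEquiv.symm_apply_apply]
  have : Nonempty (Fin d) := Fin.pos_iff_nonempty.mp hd0
  refine ⟨ρ, isIrreducible_of ρ fun K hK => ?_⟩
  by_cases hK0 : K = ⊥
  · exact Or.inl hK0
  right
  let K' : Submodule ℂ W := Submodule.map U.subtype (Submodule.comap e.toLinearMap K)
  have hK'U : K' ≤ U := Submodule.map_subtype_le _ _
  have hK'0 : K' ≠ ⊥ := by
    obtain ⟨v, hv, hv0⟩ := Submodule.exists_mem_ne_zero_of_ne_bot hK0
    intro h
    have h1 : ((e.symm v : U) : W) ∈ K' := by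
      refine Submodule.mem_map.mpr ⟨e.symm v, ?_, rfl⟩
      show e (e.symm v) ∈ K
      rw [LinearEquiv.apply_symm_apply]
      exact hv
    rw [h, Submodule.mem_bot] at h1
    apply hv0
    have h2 : e.symm v = 0 := Subtype.ext h1
    rw [← e.apply_symm_apply v, h2, map_zero]
  have hinv : ∀ g, ∀ f ∈ K', (ω g : Module.End ℂ W) f ∈ K' := by
    rintro g _ ⟨u, hu, rfl⟩
    refine Submodule.mem_map.mpr ⟨(LinearMap.restrict (ω g : Module.End ℂ W) (hU g)) u, ?_, rfl⟩
    show e _ ∈ K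
    rw [← hρ]
    exact hK g _ hu
  have h1 := hirr K' hK'U hK'0 hinv
  rw [eq_top_iff]
  intro v _
  have h2 : ((e.symm v : U) : W) ∈ K' := by
    rw [h1]
    exact (e.symm v).2
  obtain ⟨u, hu, hu'⟩ := Submodule.mem_map.mp h2
  have h3 : u = e.symm v := Subtype.ext hu'
  have h4 : e u ∈ K := hu
  rw [h3, LinearEquiv.apply_symm_apply] at h4
  exact h4

/-! ### The parity operator -/

/-- The parity operator. -/
noncomputable def R (n : ℕ) (F : Type*) [Field F] : Module.End ℂ ((Fin n → F) → ℂ) where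
  toFun f x := f (-x)
  map_add' f g := rfl
  map_smul' c f := rfl

@[simp] theorem R_apply (f : (Fin n → F) → ℂ) (x : Fin n → F) : R n F f x = f (-x) := rfl

theorem R_sq : R n F * R n F = 1 := by
  ext f x
  simp

variable {ψ : AddChar F ℂ}

theorem R_mul_pi (v : Fin n ⊕ Fin n → F) : R n F * pi ψ v = pi ψ (-v) * R n F := by
  apply LinearMap.ext
  intro f
  funext x
  simp only [Module.End.mul_apply, R_apply, pi_apply, aa_neg, bb_neg, dotProduct_neg, neg_dotProduct,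
    neg_neg, mul_neg]
  congr 2
  abel

theorem trace_R (h2 : (2 : F) ≠ 0) : LinearMap.trace ℂ _ (R n F) = 1 := by
  rw [trace_monomial (R n F) (fun _ => 1) (fun x => -x) (fun f x => by simp)]
  have h1 : ∀ x : Fin n → F, -x = x ↔ x = 0 := by
    intro x
    constructor
    · intro h
      funext i
      have h3 := congrFun h i
      simp only [Pi.neg_apply] at h3
      have h4 : 2 * x i = 0 := by linear_combination -h3
      exact (mul_eq_zero.mp h4).resolve_left h2
    · rintro rfl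
      simp
  simp only [h1]
  simp

/-- Any operator implementing `g` commutes with the parity. -/
theorem commute_R (h2 : (2 : F) ≠ 0) (hψ : ψ 1 ≠ 1) (g : symplecticGroup (Fin n) F)
    (Ω : (Module.End ℂ ((Fin n → F) → ℂ))ˣ)
    (hΩ : ∀ w, (Ω : Module.End ℂ ((Fin n → F) → ℂ)) * pi ψ w = pi ψ (gv g w) * (Ω : Module.End ℂ ((Fin n → F) → ℂ))) :
    R n F * (Ω : Module.End ℂ ((Fin n → F) → ℂ)) = (Ω : Module.End ℂ ((Fin n → F) → ℂ)) * R n F := by
  set M : Module.End ℂ ((Fin n → F) → ℂ) := (Ω : Module.End ℂ ((Fin n → F) → ℂ)) with hM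
  set Mi : Module.End ℂ ((Fin n → F) → ℂ) := ((Ω⁻¹ : (Module.End ℂ ((Fin n → F) → ℂ))ˣ) : Module.End ℂ ((Fin n → F) → ℂ)) with hMi
  have hMMi : M * Mi = 1 := Units.mul_inv Ω
  have hMiM : Mi * M = 1 := Units.inv_mul Ω
  have hgneg : ∀ w, gv g (-w) = - gv g w := fun w => Matrix.mulVec_neg _ _
  -- `A = R M R` implements `g`
  have hA : ∀ w, (R n F * M * R n F) * pi ψ w = pi ψ (gv g w) * (R n F * M * R n F) := by
    intro w
    calc (R n F * M * R n F) * pi ψ w = R n F * M * (R n F * pi ψ w) := by rw [mul_assoc]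
      _ = R n F * (M * pi ψ (-w)) * R n F := by rw [R_mul_pi]; simp only [mul_assoc]
      _ = R n F * (pi ψ (-gv g w) * M) * R n F := by rw [hΩ, hgneg]
      _ = (R n F * pi ψ (-gv g w)) * M * R n F := by simp only [mul_assoc]
      _ = (pi ψ (gv g w) * R n F) * M * R n F := by rw [R_mul_pi, neg_neg]
      _ = _ := by simp only [mul_assoc]
  have hMi' : ∀ w, Mi * pi ψ (gv g w) = pi ψ w * Mi := by
    intro w
    calc Mi * pi ψ (gv g w) = Mi * pi ψ (gv g w) * (M * Mi) := by rw [hMMi, mul_one]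
      _ = Mi * (pi ψ (gv g w) * M) * Mi := by simp only [mul_assoc]
      _ = Mi * (M * pi ψ w) * Mi := by rw [hΩ]
      _ = (Mi * M) * pi ψ w * Mi := by simp only [mul_assoc]
      _ = _ := by rw [hMiM, one_mul]
  obtain ⟨c, hc⟩ := eq_scalar_of_commute (T := Mi * (R n F * M * R n F)) hψ (fun v => by
    rw [mul_assoc, hA, ← mul_assoc, hMi', mul_assoc])
  have h1 : R n F * M * R n F = c • M := by
    calc R n F * M * R n F = M * (Mi * (R n F * M * R n F)) := by rw [← mul_assoc, hMMi, one_mul]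
      _ = _ := by rw [hc, mul_smul_comm, mul_one]
  have h3 : R n F * M = c • (M * R n F) := by
    calc R n F * M = R n F * M * (R n F * R n F) := by rw [R_sq, mul_one]
      _ = (R n F * M * R n F) * R n F := by simp only [mul_assoc]
      _ = _ := by rw [h1, smul_mul_assoc]
  have h4 : Mi * (R n F * M) = c • R n F := by
    rw [h3, mul_smul_comm, ← mul_assoc, hMiM, one_mul]
  have h5 : LinearMap.trace ℂ _ (Mi * (R n F * M)) = 1 := by
    rw [LinearMap.trace_mul_comm, mul_assoc, hMMi, mul_one, trace_R h2]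
  rw [h4, map_smul, trace_R h2, smul_eq_mul, mul_one] at h5
  rw [h3, h5, one_smul]

/-- The odd functions. -/
noncomputable def oddFns (n : ℕ) (F : Type*) [Field F] : Submodule ℂ ((Fin n → F) → ℂ) where
  carrier := {f | ∀ x, f (-x) = - f x}
  add_mem' := by
    intro f g hf hg x
    simp [hf x, hg x]
    ring
  zero_mem' := by
    intro x
    simp
  smul_mem' := by
    intro c f hf x
    simp [hf x]

theorem mem_oddFns {f : (Fin n → F) → ℂ} : f ∈ oddFns n F ↔ ∀ x, f (-x) = - f x := Iff.rfl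

theorem oddFns_invariant (h2 : (2 : F) ≠ 0) (hψ : ψ 1 ≠ 1) (g : symplecticGroup (Fin n) F)
    (Ω : (Module.End ℂ ((Fin n → F) → ℂ))ˣ)
    (hΩ : ∀ w, (Ω : Module.End ℂ ((Fin n → F) → ℂ)) * pi ψ w = pi ψ (gv g w) * (Ω : Module.End ℂ ((Fin n → F) → ℂ)))
    {f : (Fin n → F) → ℂ} (hf : f ∈ oddFns n F) : (Ω : Module.End ℂ ((Fin n → F) → ℂ)) f ∈ oddFns n F := by
  intro x
  have h1 := congrArg (fun S : Module.End ℂ ((Fin n → F) → ℂ) => S f x) (commute_R h2 hψ g Ω hΩ)
  simp only [Module.End.mul_apply, R_apply] at h1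
  have h3 : R n F f = - f := by
    funext y
    exact hf y
  rw [h1, h3, map_neg]
  rfl

/-- The projection to the odd functions. -/
noncomputable def oddProj (n : ℕ) (F : Type*) [Field F] : Module.End ℂ ((Fin n → F) → ℂ) :=
  (2 : ℂ)⁻¹ • (1 - R n F)

theorem oddProj_isProj (h2 : (2 : F) ≠ 0) : LinearMap.IsProj (oddFns n F) (oddProj n F) := by
  refine ⟨fun f x => ?_, fun f hf => ?_⟩
  · simp only [oddProj, LinearMap.smul_apply, LinearMap.sub_apply, Module.End.one_apply, Pi.smul_apply,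
      Pi.sub_apply, R_apply, neg_neg, smul_eq_mul]
    ring
  · funext x
    simp only [oddProj, LinearMap.smul_apply, LinearMap.sub_apply, Module.End.one_apply, Pi.smul_apply,
      Pi.sub_apply, R_apply, smul_eq_mul, hf x]
    ring

/-- The dimension of the odd functions. -/
theorem finrank_oddFns (h2 : (2 : F) ≠ 0) :
    2 * Module.finrank ℂ (oddFns n F) + 1 = Fintype.card F ^ n := by
  have h1 := (oddProj_isProj (n := n) h2).trace
  have h3 : LinearMap.trace ℂ _ (oddProj n F) = (2 : ℂ)⁻¹ * ((Fintype.card F ^ n : ℂ) - 1) := by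
    simp only [oddProj, map_smul, map_sub, trace_R h2, LinearMap.trace_one, smul_eq_mul]
    congr 2
    rw [Module.finrank_fintype_fun_eq_card, Fintype.card_fun, Fintype.card_fin]
    simp
  rw [h3] at h1
  have h4 : ((2 * Module.finrank ℂ (oddFns n F) + 1 : ℕ) : ℂ) = ((Fintype.card F ^ n : ℕ) : ℂ) := by
    push_cast
    rw [← h1]
    field_simp
    ring
  exact_mod_cast h4

/-! ### Explicit operators -/

variable (ψ) in
/-- The multiplication operator of a quadratic form. -/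
noncomputable def Dop (Y : Matrix (Fin n) (Fin n) F) : Module.End ℂ ((Fin n → F) → ℂ) where
  toFun f x := ψ (-(2⁻¹ * (x ⬝ᵥ Y *ᵥ x))) * f x
  map_add' f g := by
    funext x
    simp [mul_add]
  map_smul' c f := by
    funext x
    simp only [Pi.smul_apply, smul_eq_mul, RingHom.id_apply]
    ring

@[simp] theorem Dop_apply (Y : Matrix (Fin n) (Fin n) F) (f : (Fin n → F) → ℂ) (x : Fin n → F) :
    Dop ψ Y f x = ψ (-(2⁻¹ * (x ⬝ᵥ Y *ᵥ x))) * f x := rfl

theorem Dop_implements (h2 : (2 : F) ≠ 0) (Y : symA n F) (w : Fin n ⊕ Fin n → F) :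
    Dop ψ Y.1 * pi ψ w = pi ψ (gv (tauY Y) w) * Dop ψ Y.1 := by
  apply LinearMap.ext
  intro f
  funext x
  simp only [Module.End.mul_apply, Dop_apply, pi_apply, gv, aa_tauY, bb_tauY]
  rw [← mul_assoc, ← mul_assoc, ← AddChar.map_add_eq_mul, ← AddChar.map_add_eq_mul]
  congr 2
  have hY : Y.1ᵀ = Y.1 := Y.2
  have e1 : aa w ⬝ᵥ Y.1 *ᵥ x = x ⬝ᵥ Y.1 *ᵥ aa w := by
    rw [dotProduct_mulVec, ← mulVec_transpose, hY, dotProduct_comm]
  have e2 : Y.1 *ᵥ aa w ⬝ᵥ x = x ⬝ᵥ Y.1 *ᵥ aa w := dotProduct_comm _ _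
  simp only [mulVec_add, dotProduct_add, add_dotProduct, e1, e2]
  have h3 : (2 : F)⁻¹ * 2 = 1 := inv_mul_cancel₀ h2
  linear_combination (x ⬝ᵥ Y.1 *ᵥ aa w) * h3

/-- The substitution operator. -/
noncomputable def Sop (D : Matrix (Fin n) (Fin n) F) : Module.End ℂ ((Fin n → F) → ℂ) where
  toFun f x := f (D *ᵥ x)
  map_add' f g := rfl
  map_smul' c f := rfl

@[simp] theorem Sop_apply (D : Matrix (Fin n) (Fin n) F) (f : (Fin n → F) → ℂ) (x : Fin n → F) :
    Sop D f x = f (D *ᵥ x) := rfl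

theorem Sop_implements {C D : Matrix (Fin n) (Fin n) F} (hDC : D * C = 1) (w : Fin n ⊕ Fin n → F) :
    Sop D * pi ψ w = pi ψ (gv (levi hDC) w) * Sop D := by
  apply LinearMap.ext
  intro f
  funext x
  simp only [Module.End.mul_apply, Sop_apply, pi_apply, gv, aa_levi, bb_levi]
  have h1 : D *ᵥ (x + C *ᵥ aa w) = D *ᵥ x + aa w := by
    rw [mulVec_add, mulVec_mulVec, hDC, one_mulVec]
  rw [h1]
  congr 2
  have e1 : Dᵀ *ᵥ bb w ⬝ᵥ x = bb w ⬝ᵥ D *ᵥ x := by
    rw [mulVec_transpose, dotProduct_mulVec]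
  have e2 : C *ᵥ aa w ⬝ᵥ Dᵀ *ᵥ bb w = aa w ⬝ᵥ bb w := by
    rw [dotProduct_comm, mulVec_transpose, ← dotProduct_mulVec, mulVec_mulVec, hDC, one_mulVec,
      dotProduct_comm]
  rw [e1, e2]

/-! ### Irreducibility -/

section
variable (ω : symplecticGroup (Fin n) F →* (Module.End ℂ ((Fin n → F) → ℂ))ˣ)
  (hω : ∀ g w, (ω g : Module.End ℂ ((Fin n → F) → ℂ)) * pi ψ w =
    pi ψ (gv g w) * (ω g : Module.End ℂ ((Fin n → F) → ℂ)))

include hω

theorem inv_of_impl (hψ : ψ 1 ≠ 1) {K : Submodule ℂ ((Fin n → F) → ℂ)}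
    (hK : ∀ g, ∀ f ∈ K, (ω g : Module.End ℂ ((Fin n → F) → ℂ)) f ∈ K) (g : symplecticGroup (Fin n) F)
    {T : Module.End ℂ ((Fin n → F) → ℂ)} (hT : ∀ w, T * pi ψ w = pi ψ (gv g w) * T) {f : (Fin n → F) → ℂ}
    (hf : f ∈ K) : T f ∈ K := by
  set M : Module.End ℂ ((Fin n → F) → ℂ) := (ω g : Module.End ℂ ((Fin n → F) → ℂ)) with hM
  set Mi : Module.End ℂ ((Fin n → F) → ℂ) := (((ω g)⁻¹ : (Module.End ℂ ((Fin n → F) → ℂ))ˣ) : Module.End ℂ ((Fin n → F) → ℂ)) with hMi
  have hMMi : M * Mi = 1 := Units.mul_inv (ω g)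
  have hMiM : Mi * M = 1 := Units.inv_mul (ω g)
  have hMi' : ∀ w, Mi * pi ψ (gv g w) = pi ψ w * Mi := by
    intro w
    calc Mi * pi ψ (gv g w) = Mi * pi ψ (gv g w) * (M * Mi) := by rw [hMMi, mul_one]
      _ = Mi * (pi ψ (gv g w) * M) * Mi := by simp only [mul_assoc]
      _ = Mi * (M * pi ψ w) * Mi := by rw [hω]
      _ = (Mi * M) * pi ψ w * Mi := by simp only [mul_assoc]
      _ = _ := by rw [hMiM, one_mul]
  obtain ⟨c, hc⟩ := eq_scalar_of_commute (T := Mi * T) hψ (fun v => by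
    rw [mul_assoc, hT, ← mul_assoc, hMi', mul_assoc])
  have h1 : T = c • M := by
    calc T = M * (Mi * T) := by rw [← mul_assoc, hMMi, one_mul]
      _ = _ := by rw [hc, mul_smul_comm, mul_one]
  rw [h1, LinearMap.smul_apply]
  exact K.smul_mem _ (hK g f hf)

end

/-- The function `δ_x - δ_{-x}`. -/
noncomputable def oe (x : Fin n → F) : (Fin n → F) → ℂ := Pi.single x 1 - Pi.single (-x) 1

/-- The values of `x ↦ x Y x` separate vectors up to sign. -/
theorem exists_sep {x₀ x : Fin n → F} (h1 : x ≠ x₀) (h3 : x ≠ -x₀) :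
    ∃ Y : symA n F, x₀ ⬝ᵥ Y.1 *ᵥ x₀ ≠ x ⬝ᵥ Y.1 *ᵥ x := by
  have hv : ∀ (u a : Fin n → F), a ⬝ᵥ (Matrix.vecMulVec u u *ᵥ a) = (u ⬝ᵥ a) ^ 2 := by
    intro u a
    have h4 : Matrix.vecMulVec u u *ᵥ a = (u ⬝ᵥ a) • u := by
      funext j
      simp only [Pi.smul_apply, smul_eq_mul, Matrix.mulVec, dotProduct, Matrix.vecMulVec_apply,
        Finset.mul_sum, Finset.sum_mul]
      refine Finset.sum_congr rfl fun l _ => ?_
      ring
    rw [h4, dotProduct_smul, dotProduct_comm a u, smul_eq_mul, pow_two]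
  by_contra hc
  push Not at hc
  have h4 : ∀ u : Fin n → F, (u ⬝ᵥ (x₀ - x)) * (u ⬝ᵥ (x₀ + x)) = 0 := by
    intro u
    have h5 := hc ⟨(1 : F) • Matrix.vecMulVec u u, vecMulVec_mem u 1⟩
    simp only [one_smul, hv] at h5
    rw [dotProduct_sub, dotProduct_add]
    linear_combination h5
  have hs1 : x₀ - x ≠ 0 := by
    intro h
    exact h1 (sub_eq_zero.mp h).symm
  have hs2 : x₀ + x ≠ 0 := by
    intro h
    apply h3
    rw [eq_neg_iff_add_eq_zero, add_comm]
    exact h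
  obtain ⟨u₁, hu₁⟩ := exists_dot_eq_one hs1
  obtain ⟨u₂, hu₂⟩ := exists_dot_eq_one hs2
  rw [dotProduct_comm] at hu₁ hu₂
  have h5 := h4 u₁
  rw [hu₁, one_mul] at h5
  have h6 := h4 u₂
  rw [hu₂, mul_one] at h6
  have h7 := h4 (u₁ + u₂)
  rw [add_dotProduct, add_dotProduct, hu₁, hu₂, h5, h6] at h7
  simp at h7

/-- **Irreducibility of the odd part.** -/
theorem odd_irred (hn : 2 ≤ n) (h2 : (2 : F) ≠ 0) (hψ : ψ 1 ≠ 1)
    (ω : symplecticGroup (Fin n) F →* (Module.End ℂ ((Fin n → F) → ℂ))ˣ)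
    (hω : ∀ g w, (ω g : Module.End ℂ ((Fin n → F) → ℂ)) * pi ψ w =
      pi ψ (gv g w) * (ω g : Module.End ℂ ((Fin n → F) → ℂ)))
    (K : Submodule ℂ ((Fin n → F) → ℂ)) (hKU : K ≤ oddFns n F) (hK0 : K ≠ ⊥)
    (hK : ∀ g, ∀ f ∈ K, (ω g : Module.End ℂ ((Fin n → F) → ℂ)) f ∈ K) : K = oddFns n F := by
  classical
  have hD : ∀ (Y : symA n F), ∀ f ∈ K, Dop ψ Y.1 f ∈ K := fun Y f hf =>
    inv_of_impl ω hω hψ hK (tauY Y) (Dop_implements h2 Y) hf
  have hS : ∀ (C D : Matrix (Fin n) (Fin n) F) (hDC : D * C = 1), ∀ f ∈ K, Sop D f ∈ K :=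
    fun C D hDC f hf => inv_of_impl ω hω hψ hK (levi hDC) (Sop_implements hDC) hf
  obtain ⟨f, hf, hf0⟩ := Submodule.exists_mem_ne_zero_of_ne_bot hK0
  obtain ⟨x₀, hx₀⟩ := Function.ne_iff.mp hf0
  have hodd : ∀ x, f (-x) = - f x := hKU hf
  have hx₀0 : x₀ ≠ 0 := by
    rintro rfl
    have h3 := hodd 0
    rw [neg_zero] at h3
    have h4 : f 0 = 0 := by
      have h5 : 2 * f 0 = 0 := by linear_combination h3
      exact (mul_eq_zero.mp h5).resolve_left two_ne_zero
    exact hx₀ h4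
  have hne : x₀ ≠ -x₀ := by
    intro h
    apply hx₀0
    funext i
    have h3 := congrFun h i
    simp only [Pi.neg_apply] at h3
    have h4 : 2 * x₀ i = 0 := by linear_combination h3
    exact (mul_eq_zero.mp h4).resolve_left h2
  -- the character
  let cx : (Fin n → F) → AddChar (symA n F) ℂ := fun x =>
    { toFun := fun Y => ψ (2⁻¹ * (x₀ ⬝ᵥ Y.1 *ᵥ x₀ - x ⬝ᵥ Y.1 *ᵥ x))
      map_zero_eq_one' := by simp
      map_add_eq_mul' := by
        intro a b
        rw [← AddChar.map_add_eq_mul]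
        congr 1
        have : ((a + b : symA n F) : Matrix (Fin n) (Fin n) F) = a.1 + b.1 := rfl
        rw [this, add_mulVec, add_mulVec, dotProduct_add, dotProduct_add]
        ring }
  have hcx : ∀ x Y, cx x Y = ψ (2⁻¹ * (x₀ ⬝ᵥ Y.1 *ᵥ x₀ - x ⬝ᵥ Y.1 *ᵥ x)) := fun _ _ => rfl
  have hsum : ∀ x, x ≠ x₀ → x ≠ -x₀ → ∑ Y : symA n F, cx x Y = 0 := by
    intro x h1 h3
    apply AddChar.sum_eq_zero_iff_ne_zero.mpr
    intro h
    obtain ⟨Y, hY⟩ := exists_sep h1 h3
    set t := x₀ ⬝ᵥ Y.1 *ᵥ x₀ - x ⬝ᵥ Y.1 *ᵥ x with ht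
    have ht0 : t ≠ 0 := sub_ne_zero.mpr hY
    let Y' : symA n F := ⟨(2 * t⁻¹) • Y.1, by
      show ((2 * t⁻¹) • Y.1)ᵀ = _
      rw [transpose_smul, Y.2]⟩
    have h4 := DFunLike.congr_fun h Y'
    rw [hcx] at h4
    apply hψ
    have h5 : (2⁻¹ * (x₀ ⬝ᵥ Y'.1 *ᵥ x₀ - x ⬝ᵥ Y'.1 *ᵥ x) : F) = 1 := by
      show (2⁻¹ * (x₀ ⬝ᵥ ((2 * t⁻¹) • Y.1) *ᵥ x₀ - x ⬝ᵥ ((2 * t⁻¹) • Y.1) *ᵥ x) : F) = 1
      rw [Matrix.smul_mulVec, Matrix.smul_mulVec, dotProduct_smul, dotProduct_smul, smul_eq_mul,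
        smul_eq_mul, ← mul_sub, ← ht]
      field_simp
    rw [h5] at h4
    exact h4
  have hsum' : ∀ x, (x = x₀ ∨ x = -x₀) → ∑ Y : symA n F, cx x Y = (Fintype.card (symA n F) : ℂ) := by
    intro x hx
    have h1 : ∀ Y, cx x Y = 1 := by
      intro Y
      rw [hcx]
      rcases hx with rfl | rfl
      · simp
      · have : -x₀ ⬝ᵥ Y.1 *ᵥ -x₀ = x₀ ⬝ᵥ Y.1 *ᵥ x₀ := by
          rw [mulVec_neg, dotProduct_neg, neg_dotProduct, neg_neg]
        rw [this]
        simp
    simp [h1]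
  have hcard : (Fintype.card (symA n F) : ℂ) ≠ 0 := Nat.cast_ne_zero.mpr Fintype.card_ne_zero
  -- the average lies in `K`
  have hA : (∑ Y : symA n F, ψ (2⁻¹ * (x₀ ⬝ᵥ Y.1 *ᵥ x₀)) • Dop ψ Y.1 f) =
      ((Fintype.card (symA n F) : ℂ) * f x₀) • oe x₀ := by
    funext x
    simp only [Finset.sum_apply, Pi.smul_apply, Dop_apply, smul_eq_mul, oe, Pi.sub_apply, Pi.single_apply]
    have h1 : ∀ Y : symA n F, ψ (2⁻¹ * (x₀ ⬝ᵥ Y.1 *ᵥ x₀)) * (ψ (-(2⁻¹ * (x ⬝ᵥ Y.1 *ᵥ x))) * f x) =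
        cx x Y * f x := by
      intro Y
      rw [← mul_assoc, ← AddChar.map_add_eq_mul, hcx]
      congr 2
      ring
    simp_rw [h1]
    rw [← Finset.sum_mul]
    by_cases h3 : x = x₀
    · subst h3
      rw [hsum' x (Or.inl rfl), if_pos rfl, if_neg hne]
      ring
    · by_cases h4 : x = -x₀
      · subst h4
        rw [hsum' _ (Or.inr rfl), if_neg h3, if_pos rfl, hodd]
        ring
      · rw [hsum x h3 h4, if_neg h3, if_neg h4]
        ring
  have he₀ : oe x₀ ∈ K := by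
    have h3 : (∑ Y : symA n F, ψ (2⁻¹ * (x₀ ⬝ᵥ Y.1 *ᵥ x₀)) • Dop ψ Y.1 f) ∈ K :=
      Submodule.sum_mem _ fun Y _ => K.smul_mem _ (hD Y f hf)
    rw [hA] at h3
    exact (K.smul_mem_iff (mul_ne_zero hcard hx₀)).mp h3
  have heall : ∀ x, oe x ∈ K := by
    intro x
    by_cases hx : x = 0
    · subst hx
      have : oe (0 : Fin n → F) = 0 := by
        simp [oe]
      rw [this]
      exact K.zero_mem
    obtain ⟨g, hg⟩ := Cfsg.Agent.Lib.Linalg.Bridge.exists_SL_mulVec_eq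
      (ι := Fin n) (F := F) (by simpa using hn) hx₀0 hx
    have h1 : (g : Matrix (Fin n) (Fin n) F) * ((g⁻¹ : SpecialLinearGroup (Fin n) F) : Matrix (Fin n) (Fin n) F) = 1 := by
      have h3 : ((g * g⁻¹ : SpecialLinearGroup (Fin n) F) : Matrix (Fin n) (Fin n) F) =
        ((1 : SpecialLinearGroup (Fin n) F) : Matrix (Fin n) (Fin n) F) := by rw [mul_inv_cancel]
      exact h3
    have h3 : ((g⁻¹ : SpecialLinearGroup (Fin n) F) : Matrix (Fin n) (Fin n) F) * (g : Matrix (Fin n) (Fin n) F) = 1 := by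
      have h3 : ((g⁻¹ * g : SpecialLinearGroup (Fin n) F) : Matrix (Fin n) (Fin n) F) =
        ((1 : SpecialLinearGroup (Fin n) F) : Matrix (Fin n) (Fin n) F) := by rw [inv_mul_cancel]
      exact h3
    set D : Matrix (Fin n) (Fin n) F := ((g⁻¹ : SpecialLinearGroup (Fin n) F) : Matrix (Fin n) (Fin n) F) with hDdef
    set C : Matrix (Fin n) (Fin n) F := (g : Matrix (Fin n) (Fin n) F) with hCdef
    have h4 := hS C D h3 _ he₀
    have h5 : Sop D (oe x₀) = oe x := by
      funext y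
      simp only [Sop_apply, oe, Pi.sub_apply, Pi.single_apply]
      have h6 : D *ᵥ y = x₀ ↔ y = x := by
        constructor
        · intro h
          rw [← hg, ← h, Matrix.mulVec_mulVec, h1, one_mulVec]
        · rintro rfl
          rw [← hg, Matrix.mulVec_mulVec, h3, one_mulVec]
      have h7 : D *ᵥ y = -x₀ ↔ y = -x := by
        constructor
        · intro h
          rw [← hg, ← mulVec_neg, ← h, Matrix.mulVec_mulVec, h1, one_mulVec]
        · rintro rfl
          rw [← hg, mulVec_neg, Matrix.mulVec_mulVec, h3, one_mulVec]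
      simp only [h6, h7]
    rwa [h5] at h4
  apply le_antisymm hKU
  intro h hh
  have hh' : ∀ x, h (-x) = - h x := hh
  have h1 : h = (2 : ℂ)⁻¹ • ∑ x, h x • oe x := by
    funext y
    simp only [Pi.smul_apply, Finset.sum_apply, oe, Pi.sub_apply, Pi.single_apply, smul_eq_mul, mul_sub,
      Finset.sum_sub_distrib]
    have e1 : (∑ x, h x * if y = x then (1 : ℂ) else 0) = h y := by
      simp
    have e2 : (∑ x, h x * if y = -x then (1 : ℂ) else 0) = h (-y) := by
      rw [Finset.sum_eq_single (-y)]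
      · simp
      · intro b _ hb
        rw [if_neg, mul_zero]
        intro h3
        apply hb
        rw [h3, neg_neg]
      · simp
    rw [e1, e2, hh']
    ring
  rw [h1]
  exact K.smul_mem _ (Submodule.sum_mem _ fun x _ => K.smul_mem _ (heall x))

/-- **The Weil representation of degree `(q^n - 1)/2`.** -/
theorem exists_weil (hn : 2 ≤ n) (hodd : Odd (Fintype.card F)) :
    ∃ ρ : Representation ℂ (symplecticGroup (Fin n) F) (Fin ((Fintype.card F ^ n - 1) / 2) → ℂ),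
      ρ.IsIrreducible := by
  classical
  have hodd' : Fintype.card F % 2 = 1 := Nat.odd_iff.mp hodd
  have hchar : ringChar F ≠ 2 := by
    intro h
    have := FiniteField.even_card_iff_char_two.mp h
    omega
  have h2 : (2 : F) ≠ 0 := Ring.two_ne_zero hchar
  obtain ⟨ψ, hψ⟩ : ∃ ψ : AddChar F ℂ, ψ 1 ≠ 1 :=
    AddChar.exists_apply_ne_zero.mpr one_ne_zero
  obtain ⟨ω, hω⟩ := exists_omega (n := n) h2 hψ (by omega)
  have hfr := finrank_oddFns (n := n) h2
  have hq : 2 ≤ Fintype.card F := Fintype.one_lt_card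
  have hq3 : 3 ≤ Fintype.card F := by omega
  have hqn : 3 ≤ Fintype.card F ^ n := by
    calc 3 ≤ Fintype.card F := hq3
      _ = Fintype.card F ^ 1 := (pow_one _).symm
      _ ≤ _ := Nat.pow_le_pow_right (by omega) (by omega)
  have hd : Module.finrank ℂ (oddFns n F) = (Fintype.card F ^ n - 1) / 2 := by omega
  exact exists_irred_of ω (oddFns n F) (fun g f hf => oddFns_invariant h2 hψ g (ω g) (hω g) hf)
    (fun K hKU hK0 hK => odd_irred hn h2 hψ ω hω K hKU hK0 hK) hd (by omega)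

end Cfsg.Agent.Lib.MinDeg.Weil.Odd
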